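import Cfsg.Agent.H759.LSix.Sect
import Cfsg.Agent.H593.D1Lower
import Cfsg.Agent.H593.CyclicSplit2
import Cfsg.Agent.S0906

/-!
# The structure of a block with a Sylow subgroup of order `p`, with the formula for the coefficients (helper759; L6)

`structure'` : variant of `H593.D1Block3.structure_thm`.
-/

set_option autoImplicit false
set_option linter.unusedSectionVars false

namespace Cfsg.Agent.H759.LSix

open Cfsg ZMod
open scoped ComplexConjugate
open Cfsg.Agent.Blocks.Local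
open Cfsg.Agent.Blocks.Basic
open Cfsg.Agent.Blocks.CyclicGroup
open Cfsg.Agent.H593
open Cfsg.Agent.H593.D1Local
open Cfsg.Agent.H593.D1Char
open Cfsg.Agent.H593.D1Sec
open Cfsg.Agent.H593.D1Gram
open Cfsg.Agent.H593.D1Block
open Cfsg.Agent.H593.D1Block2
open Cfsg.Agent.H593.D1Block3

universe u

variable {G : Type u} [Group G] [Fintype G] {p : ℕ} [hp : Fact p.Prime] {P K : Subgroup G}

open scoped Classical in
/-- The structure of the block, with the formula. -/
theorem structure' (h : Loc p P K) {M : Ideal AlgInt} [hMp : M.IsPrime] (hM : IsPModular p M)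
    {B : Set (IrrCharacter G)} (hB : IsPBlock M B) (hBP : IsDefectGroup p M B P)
    {θ : IrrCharacter (LL P K)}
    (hind : IsInducedBlock M (Subgroup.centralizer (P : Set G))
      (blockOf M (infl h θ : Subgroup.centralizer (P : Set G) → ℂ)) B)
    {z : G} (hz : orderOf z = p) (hzP : z ∈ P)
    [Fintype K] [Fintype (LL P K)] [Fintype B] (hG : (Nat.card G).factorization p = 1) :
    ∃ (e : ℕ) (Ω : Type) (_ : Fintype Ω) (_ : Nonempty Ω) (q : (ZMod p)ˣ → Ω) (Wt : Ω → ZMod p → ℂ)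
      (a : B → Ω → ℤ), 0 < e ∧ Fintype.card B = e + Fintype.card Ω ∧
      (∀ χ, (∀ i, a χ i = 1) ∨ (∀ i, a χ i = -1) ∨
        (∃ i₀, ∀ i, a χ i = if i = i₀ then 1 else 0) ∨
        (∃ i₀, ∀ i, a χ i = if i = i₀ then -1 else 0)) ∧
      (∀ i j, ∑ χ, a χ i * a χ j = (e : ℤ) + if i = j then 1 else 0) ∧
      (∀ (χ : B) (ω : Ω), (a χ ω : ℂ) = ∑ m : ZMod p, Wt ω m *
        conj (DD (θ : LL P K → ℂ) ((χ : IrrCharacter G) : G → ℂ) (u z m))) ∧
      (∀ ω, Wt ω 0 = 0) ∧
      (∀ (χ : B) (m : ZMod p), m ≠ 0 → DD (θ : LL P K → ℂ) ((χ : IrrCharacter G) : G → ℂ) (u z m) =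
        ∑ i : (ZMod p)ˣ, (a χ (q i) : ℂ) * (stdAddChar ((i : ZMod p) * m) : ℂ)) := by
  classical
  obtain ⟨ψ, hψ⟩ := exists_hom h hz hzP
  have hcardH := card_map h hz hzP hψ (stab h θ)
  have hlow' := D1Lower.lower h hM hB hind hz hzP ψ hψ
  set H := (stab h θ).map ψ with hH
  have : Fintype ((ZMod p)ˣ ⧸ H) := Fintype.ofFinite _
  have hp0 : (p : ℂ) ≠ 0 := Nat.cast_ne_zero.2 hp.out.ne_zero
  let f : B → ZMod p → ℂ := fun χ m =>
    DD (θ : LL P K → ℂ) ((χ : IrrCharacter G) : G → ℂ) (u z m)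
  have hex : ∀ (χ : B) (i : ZMod p), ∃ n : ℤ,
      (p : ℂ)⁻¹ * ∑ m : ZMod p, f χ m * (stdAddChar (-(i * m)) : ℂ) = n := by
    intro χ i
    obtain ⟨n, hn⟩ := exists_mul h hz hzP θ (χ : IrrCharacter G) i
    exact ⟨n, by rw [hn]; push_cast; rfl⟩
  choose mul hmul using hex
  have hu1 : ∀ m : ZMod p, m ≠ 0 → u z m ≠ 1 := fun m hm h => hm ((u_eq_one_iff hz).1 h)
  have huP := u_mem_P h hz hzP
  have hconj : ∀ (χ : B) (m n : ZMod p), conj (f χ m * conj (f χ n)) =
      f χ n * conj (f χ m) := by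
    intro χ m n
    rw [map_mul, Complex.conj_conj, mul_comm]
  obtain ⟨a, h1, h2, h3, h4, h5, h6⟩ := D1Abs.abs_structure H f mul hmul
    (fun m n hm hn hmn => by
      obtain ⟨k, hk, hk2⟩ := (rel_iff h hz hzP hψ (stab h θ) m n).2 hmn
      have hg := gramB_eq h hM hB hind (huP m) (hu1 m hm) (huP n) ⟨k, hk, hk2⟩
      have hg' := congrArg conj hg
      rw [map_sum, Complex.conj_natCast] at hg'
      rw [← hg']
      exact Finset.sum_congr rfl fun χ _ => (hconj χ n m).symm)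
    (fun m n hm hn hmn => by
      have hmn' := fun hh => hmn ((rel_iff h hz hzP hψ (stab h θ) m n).1 hh)
      have hg := gramB_ne h hM hB hind (huP m) (hu1 m hm) (huP n) hmn'
      have hg' := congrArg conj hg
      rw [map_sum, map_zero] at hg'
      rw [← hg']
      exact Finset.sum_congr rfl fun χ _ => (hconj χ n m).symm)
    (fun χ c hc m hm => by
      obtain ⟨k, hk, rfl⟩ := hc
      show DD (θ : LL P K → ℂ) ((χ : IrrCharacter G) : G → ℂ) (u z _) = _
      rw [← hψ, ← DD_cj h k θ (χ : IrrCharacter G).2, (mem_stab h).1 hk])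
    (fun χ => exists_DD_ne h hM hB hBP hind hz hzP hG χ.2)
    (by rw [hcardH]; exact hlow')
  rw [hcardH] at h1 h2 h4 h6
  refine ⟨(LL P K).relIndex (stab h θ), (ZMod p)ˣ ⧸ H, inferInstance, ⟨QuotientGroup.mk 1⟩,
    fun i => QuotientGroup.mk i, fun ω m => (p : ℂ)⁻¹ *
    ((stdAddChar (((ω.out : (ZMod p)ˣ) : ZMod p) * m) : ℂ) - 1), a, ?_, ?_, ?_, ?_, ?_, ?_, ?_⟩
  · exact Nat.pos_of_ne_zero Subgroup.index_ne_zero_of_finite
  · rw [← Nat.card_eq_fintype_card, h2, Nat.card_eq_fintype_card]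
  · convert h3
  · convert h4
  · intro χ ω
    have h7 := Cfsg.Agent.H593.CyclicSplit.inversion_units
      (fun i : (ZMod p)ˣ => (a χ (QuotientGroup.mk i) : ℂ)) (f χ) (fun m hm => h5 χ m hm) ω.out
    simp only [QuotientGroup.out_eq'] at h7
    have h8 := congrArg conj h7
    simp only [map_mul, map_sum, map_inv₀, map_natCast, map_intCast, map_sub, map_one,
        Cfsg.Agent.Blocks.CyclicGram.conj_std, neg_neg] at h8
    rw [h8, Finset.mul_sum]
    refine Finset.sum_congr rfl fun m _ => ?_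
    ring
  · intro ω
    show (p : ℂ)⁻¹ * ((stdAddChar (((ω.out : (ZMod p)ˣ) : ZMod p) * 0) : ℂ) - 1) = 0
    rw [mul_zero, AddChar.map_zero_eq_one, sub_self, mul_zero]
  · intro χ m hm
    exact h5 χ m hm

end Cfsg.Agent.H759.LSix
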